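import Cfsg.Agent.Cit.HexMem
import Cfsg.Agent.Cit.HexD4
import Cfsg.Agent.Cit.HexG2
import Cfsg.Agent.GTwoOdd.SLNormal
import Cfsg.Agent.GTwoOdd.HexIdent
import Cfsg.Agent.S1059
import Cfsg.Agent.S1067

/-!
# S5719, 3D4(q), q odd, 2-rank at least 2: rows `G₂`, `³D₄` of the identification (helper271)

`S` with a subgroup `SL₂(q³)` whose centre `⟨z⟩` has order 2 and which is normal in `C_S(z)`, `|S|` dividing `|³D₄(q)|`:
* `hex_case` : in `HexGrp σ S` the field of the subgroup has the order of `E` or of the fixed field of `σ`;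
* `rowC_g2` : `S ≃* G₂(F)` is impossible (so the conclusion holds);
* `rowC_d4` : `S ≃* ³D₄(K)` gives `|S| = |³D₄(q)|`.
-/

set_option autoImplicit false

open Subgroup

namespace Cfsg.Agent.H271.IFD

open Cfsg.Lie
open Cfsg.Agent.Cit.HexBase (HexGrp fx SL2 isType_of_equiv)


/-- the order of `SL₂` determines the order of the field -/
theorem card_eq_of_cards {A B : ℕ} (hA : 2 ≤ A) (hB : 2 ≤ B) (h : A * (A ^ 2 - 1) = B * (B ^ 2 - 1)) : A = B := by
  have key : ∀ {A B : ℕ}, 2 ≤ A → A < B → A * (A ^ 2 - 1) < B * (B ^ 2 - 1) := by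
    intro A B hA hAB
    have h1 : A ^ 2 - 1 < B ^ 2 - 1 := by
      have : A ^ 2 < B ^ 2 := Nat.pow_lt_pow_left hAB (by norm_num)
      have : 1 ≤ A ^ 2 := Nat.one_le_pow _ _ (by omega)
      omega
    exact Nat.mul_lt_mul'' hAB h1
  rcases lt_trichotomy A B with h1 | h1 | h1
  · exact absurd h (key hA h1).ne
  · exact h1
  · exact absurd h (key hB h1).ne'

theorem card_eq_of_sl {E L : Type*} [Field E] [Field L] [Finite E] [Finite L] (h : Nat.card (SL2 L) = Nat.card (SL2 E)) :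
    Nat.card L = Nat.card E := by
  have := Fintype.ofFinite E
  have := Fintype.ofFinite L
  rw [Cfsg.Agent.GTwoOdd.SLNormal.card_sl, Cfsg.Agent.GTwoOdd.SLNormal.card_sl] at h
  rw [Nat.card_eq_fintype_card, Nat.card_eq_fintype_card]
  exact card_eq_of_cards Fintype.one_lt_card Fintype.one_lt_card h

/-- **the hexagonal case** -/
theorem hex_case {E : Type*} [Field E] [Finite E] {σ : E ≃+* E} {G : Type*} [Group G] [Finite G] (c : HexGrp σ G)
    (h2 : (2 : E) ≠ 0) {L : Type*} [Field L] [Finite L] (hL2 : (2 : L) ≠ 0) (j : SL2 L →* G)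
    (hj : Function.Injective j) {z : G} (hz : z * z = 1) (hz1 : z ≠ 1) (hjz : j (-1) = z)
    (hn : centralizer ({z} : Set G) ≤ normalizer (j.range : Set G)) :
    Nat.card L = Nat.card E ∨ Nat.card L = Nat.card ↥(fx σ) := by
  have hK : Cfsg.Agent.Cit.IsType j.range := isType_of_equiv hL2 (MonoidHom.ofInjective hj).symm
  have hle : j.range ≤ centralizer ({z} : Set G) := by
    rintro _ ⟨x, rfl⟩
    rw [mem_centralizer_singleton_iff, ← hjz, ← map_mul, ← map_mul]
    congr 1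
    rw [mul_neg, neg_mul, mul_one, one_mul]
  have hs : (j.range.subgroupOf (centralizer ({z} : Set G))).Normal := by
    refine ⟨fun n hn' g => ?_⟩
    rw [mem_subgroupOf] at hn' ⊢
    exact (mem_normalizer_iff.1 (hn g.2) _).1 hn'
  obtain ⟨g, -, h | h⟩ := c.exists_cj_eq h2 hz hz1 hK hle (Normal.isSubnormal hs)
  · left
    refine card_eq_of_sl ?_
    have h1 : Nat.card j.range = Nat.card c.K1 := by
      rw [← h]
      exact Nat.card_congr (j.range.equivMapOfInjective _ (MulAut.conj g).injective).toEquiv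
    rw [Nat.card_congr (MonoidHom.ofInjective hj).toEquiv, h1, Nat.card_congr (c.equivK1 h2).toEquiv]
  · right
    refine card_eq_of_sl ?_
    have h1 : Nat.card j.range = Nat.card c.K4 := by
      rw [← h]
      exact Nat.card_congr (j.range.equivMapOfInjective _ (MulAut.conj g).injective).toEquiv
    rw [Nat.card_congr (MonoidHom.ofInjective hj).toEquiv, h1, Nat.card_congr c.equivK4.toEquiv]

/-- the fixed field of `x ↦ x ^ r` on the field with `r³` elements -/
theorem card_fx {K : Type*} [Field K] [Fintype K] {q : ℕ} (hK : Fintype.card K = q ^ 3) {σ : K ≃+* K}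
    (hσ : ∀ x, σ x = x ^ q) : Nat.card ↥(fx σ) = q := by
  let ψ : K ≃ₐ[↥(fx σ)] K := AlgEquiv.ofRingEquiv (f := σ) (fun u => u.2)
  have hψ : ∀ x, ψ x = x ^ q := hσ
  rcases Cfsg.Agent.GTwoOdd.HexIdent.frob_cases ψ (fun t => by
    rw [hψ, hψ, hψ, ← pow_mul, ← pow_mul, show q * (q * q) = q ^ 3 by ring, ← hK, FiniteField.pow_card]) (fun t ht => ⟨⟨t, ht⟩, rfl⟩)
    with h | ⟨h, -⟩
  · exfalso
    obtain ⟨g, hg⟩ := IsCyclic.exists_generator (α := Kˣ)
    have h1 : orderOf g = Nat.card Kˣ := orderOf_eq_card_of_forall_mem_zpowers hg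
    have h3 : (g : K) ^ q = g := by rw [← hψ, h]
    have hq : 1 ≤ q := by
      by_contra hcon
      have : q = 0 := by omega
      rw [this] at hK
      have := Fintype.card_pos (α := K)
      omega
    have h4 : g ^ (q - 1) = 1 := by
      apply Units.ext
      have h5 : (g : K) ^ (q - 1) * g = g := by rw [← pow_succ, Nat.sub_add_cancel hq, h3]
      have h6 : (g : K) ^ (q - 1) = 1 := by
        have := mul_right_cancel₀ (Units.ne_zero g) (h5.trans (one_mul (g : K)).symm)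
        exact this
      simpa using h6
    have h5 := orderOf_dvd_of_pow_eq_one h4
    rw [h1, Nat.card_units, Nat.card_eq_fintype_card, hK] at h5
    have hq2 : 2 ≤ q := by
      by_contra hcon
      have : q = 1 := by omega
      rw [this] at hK
      have := Fintype.one_lt_card (α := K)
      omega
    have h6 := Nat.le_of_dvd (by omega) h5
    have h7 : q < q ^ 3 := by
      calc q = q ^ 1 := (pow_one q).symm
        _ < q ^ 3 := Nat.pow_lt_pow_right hq2 (by norm_num)
    omega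
  · rw [Nat.card_eq_fintype_card (α := K), hK] at h
    exact (Nat.pow_left_injective (n := 3) (by norm_num) h).symm

/-- the part of `|³D₄(q)|` prime to `q` -/
theorem coprime_rest {q : ℕ} (hq : 2 ≤ q) : Nat.Coprime q ((q ^ 2 - 1) * (q ^ 6 - 1) * (q ^ 8 + q ^ 4 + 1)) := by
  have key : ∀ m : ℕ, 0 < m → Nat.Coprime q (q ^ m - 1) := by
    intro m hm
    have h1 : 1 ≤ q ^ m := Nat.one_le_pow _ _ (by omega)
    have h2 : Nat.Coprime (q ^ m) (q ^ m - 1) := by
      have := (Nat.coprime_self_add_right (m := q ^ m - 1) (n := 1)).2 (Nat.coprime_one_right _)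
      rw [Nat.sub_add_cancel h1] at this
      exact this.symm
    exact Nat.Coprime.coprime_dvd_left (dvd_pow_self q hm.ne') h2
  refine Nat.Coprime.mul_right (Nat.Coprime.mul_right (key 2 (by norm_num)) (key 6 (by norm_num))) ?_
  have h1 : q ^ 8 + q ^ 4 + 1 = q * (q ^ 7 + q ^ 3) + 1 := by ring
  rw [h1]
  exact (Nat.coprime_mul_right_add_right q 1 (q ^ 7 + q ^ 3)).2 (Nat.coprime_one_right _) |> fun h => by
    simpa [mul_comm] using h

/-- a power of `q` dividing `|³D₄(q)|` -/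
theorem pow_dvd {q a n : ℕ} (hq : 2 ≤ q) (h : q ^ a ∣ n) (hd : n ∣ q ^ 12 * (q ^ 2 - 1) * (q ^ 6 - 1) * (q ^ 8 + q ^ 4 + 1)) :
    a ≤ 12 := by
  have h1 : q ^ a ∣ q ^ 12 * ((q ^ 2 - 1) * (q ^ 6 - 1) * (q ^ 8 + q ^ 4 + 1)) := by
    refine (h.trans hd).trans (dvd_of_eq (by ring))
  have h2 : q ^ a ∣ q ^ 12 := (Nat.Coprime.pow_left a (coprime_rest hq)).dvd_of_dvd_mul_right h1
  exact (Nat.pow_dvd_pow_iff_le_right (by omega)).1 h2

section rows

variable {S : Type*} [Group S] [Finite S] {L : Type*} [Field L] [Finite L] {q : ℕ}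

theorem two_ne_of_odd {F : Type*} [Field F] [Finite F] (h : Odd (Nat.card F)) : (2 : F) ≠ 0 := by
  intro h2
  have := Fintype.ofFinite F
  have h3 : CharP F 2 := by
    have h4 : ringChar F ∣ 2 := ringChar.dvd (by exact_mod_cast h2)
    rcases (Nat.dvd_prime Nat.prime_two).1 h4 with h5 | h5
    · exact absurd h5 (CharP.char_ne_one F _)
    · exact h5 ▸ ringChar.charP F
  obtain ⟨n, hn, hc⟩ := FiniteField.card F 2
  rw [Nat.card_eq_fintype_card, hc] at h
  have h5 : Even (2 ^ (n : ℕ)) := (Nat.even_pow.2 ⟨even_two, n.pos.ne'⟩)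
  exact (Nat.not_odd_iff_even.2 h5) h

omit [Finite S] [Finite L] in
/-- transport of the hypotheses -/
theorem transport {T : Type*} [Group T] (e : S ≃* T) (j : SL2 L →* S) (hj : Function.Injective j) {z : S}
    (hz : orderOf z = 2) (hjz : j (-1) = z) (hn : centralizer ({z} : Set S) ≤ normalizer (j.range : Set S)) :
    Function.Injective (e.toMonoidHom.comp j) ∧ e z * e z = 1 ∧ e z ≠ 1 ∧ (e.toMonoidHom.comp j) (-1) = e z ∧
      centralizer ({e z} : Set T) ≤ normalizer ((e.toMonoidHom.comp j).range : Set T) := by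
  refine ⟨e.injective.comp hj, ?_, ?_, ?_, ?_⟩
  · rw [← map_mul, ← pow_two, ← hz, pow_orderOf_eq_one, map_one]
  · intro h
    have h1 : z = 1 := e.injective (h.trans (map_one e).symm)
    rw [h1, orderOf_one] at hz
    norm_num at hz
  · change e (j (-1)) = e z
    rw [hjz]
  · intro g hg
    obtain ⟨s, rfl⟩ := e.surjective g
    have hs : s ∈ centralizer ({z} : Set S) := by
      rw [mem_centralizer_singleton_iff] at hg ⊢
      exact e.injective (by rw [map_mul, map_mul]; exact hg)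
    have h1 := mem_normalizer_iff.1 (hn hs)
    rw [mem_normalizer_iff]
    intro t
    obtain ⟨u, rfl⟩ := e.surjective t
    have h2 : ∀ w : S, e w ∈ (e.toMonoidHom.comp j).range ↔ w ∈ j.range := by
      intro w
      constructor
      · rintro ⟨x, hx⟩
        exact ⟨x, e.injective hx⟩
      · rintro ⟨x, rfl⟩
        exact ⟨x, rfl⟩
    have h3 : e s * e u * (e s)⁻¹ = e (s * u * s⁻¹) := by
      rw [map_mul, map_mul, map_inv]
    rw [h3, h2, h2]
    exact h1 u

/-- **row `G₂`** -/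
theorem rowC_g2 (hq : 2 ≤ q) (hL : Nat.card L = q ^ 3) (hLo : Odd q) (j : SL2 L →* S) (hj : Function.Injective j) {z : S}
    (hz : orderOf z = 2) (hjz : j (-1) = z) (hn : centralizer ({z} : Set S) ≤ normalizer (j.range : Set S))
    (hd : Nat.card S ∣ q ^ 12 * (q ^ 2 - 1) * (q ^ 6 - 1) * (q ^ 8 + q ^ 4 + 1))
    {F : Type*} [Field F] [Fintype F] (hF : Odd (Fintype.card F)) (e : S ≃* ↥(chevG2.group F)) : False := by
  have hF2 : (2 : F) ≠ 0 := two_ne_of_odd (by rwa [Nat.card_eq_fintype_card])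
  have hL2 : (2 : L) ≠ 0 := two_ne_of_odd (by rw [hL]; exact hLo.pow)
  have : Finite ↥(chevG2.group F) := Finite.of_equiv S e.toEquiv
  obtain ⟨h1, h2, h3, h4, h5⟩ := transport e j hj hz hjz hn
  have h6 : Nat.card L = Fintype.card F := by
    rcases hex_case (Cfsg.Agent.Cit.HexG2.g2 F hF2) hF2 hL2 _ h1 h2 h3 h4 h5 with h | h
    · rw [h, Nat.card_eq_fintype_card]
    · rw [h, ← Nat.card_eq_fintype_card]
      refine Nat.card_congr ⟨Subtype.val, fun x => ⟨x, rfl⟩, fun x => rfl, fun x => rfl⟩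
  have h7 : Nat.card S = (q ^ 3) ^ 6 * ((q ^ 3) ^ 2 - 1) * ((q ^ 3) ^ 6 - 1) := by
    rw [Nat.card_congr e.toEquiv]
    exact Cfsg.Agent.S1059.result (h6.symm.trans hL)
  have h8 : q ^ 18 ∣ Nat.card S := by
    rw [h7]
    exact ⟨((q ^ 3) ^ 2 - 1) * ((q ^ 3) ^ 6 - 1), by ring⟩
  have := pow_dvd hq h8 hd
  omega

/-- **row `³D₄`** -/
theorem rowC_d4 (hq : 2 ≤ q) (hL : Nat.card L = q ^ 3) (hLo : Odd q) (j : SL2 L →* S) (hj : Function.Injective j) {z : S}
    (hz : orderOf z = 2) (hjz : j (-1) = z) (hn : centralizer ({z} : Set S) ≤ normalizer (j.range : Set S))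
    (hd : Nat.card S ∣ q ^ 12 * (q ^ 2 - 1) * (q ^ 6 - 1) * (q ^ 8 + q ^ 4 + 1))
    {K : Type*} [Field K] [Fintype K] {r : ℕ} (hr : IsPrimePow r) (hro : Odd r) (hK : Fintype.card K = r ^ 3)
    (e : S ≃* ↥(twistedD4 K r)) :
    Nat.card S = q ^ 12 * (q ^ 2 - 1) * (q ^ 6 - 1) * (q ^ 8 + q ^ 4 + 1) := by
  have hK2 : (2 : K) ≠ 0 := two_ne_of_odd (by rw [Nat.card_eq_fintype_card, hK]; exact hro.pow)
  have hL2 : (2 : L) ≠ 0 := two_ne_of_odd (by rw [hL]; exact hLo.pow)
  have : Finite ↥(twistedD4 K r) := Finite.of_equiv S e.toEquiv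
  obtain ⟨h1, h2, h3, h4, h5⟩ := transport e j hj hz hjz hn
  obtain ⟨σ, hσ, ⟨c⟩⟩ := Cfsg.Agent.Cit.HexD4.exists_d4 hK
  have hcard : Nat.card S = r ^ 12 * (r ^ 2 - 1) * (r ^ 6 - 1) * (r ^ 8 + r ^ 4 + 1) := by
    rw [Nat.card_congr e.toEquiv]
    exact Cfsg.Agent.S1067.result hr hK
  rcases hex_case c hK2 hL2 _ h1 h2 h3 h4 h5 with h | h
  · rw [Nat.card_eq_fintype_card (α := K), hK, hL] at h
    have h6 : q = r := Nat.pow_left_injective (n := 3) (by norm_num) h
    rw [hcard, h6]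
  · exfalso
    rw [card_fx hK hσ, hL] at h
    have h8 : q ^ 36 ∣ Nat.card S := by
      rw [hcard, ← h]
      exact ⟨((q ^ 3) ^ 2 - 1) * ((q ^ 3) ^ 6 - 1) * ((q ^ 3) ^ 8 + (q ^ 3) ^ 4 + 1), by ring⟩
    have := pow_dvd hq h8 hd
    omega

end rows

end Cfsg.Agent.H271.IFD
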